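import Mathlib
import Cfsg.Prelude.Def_Solvable
import Cfsg.Agent.H19.Cores
import Cfsg.Agent.H28.ZStar

/-!
# An involution lying in a single Sylow 2-subgroup

The key contradiction in the study of groups whose Sylow 2-intersections are cyclic.
-/

set_option autoImplicit false

open scoped Pointwise

namespace Cfsg.Agent.H79.InvCyclic

universe u

variable {G : Type u} [Group G] [Finite G]

lemma mem_smul {g : G} {S : Sylow 2 G} {a : G} : a ∈ g • S ↔ g⁻¹ * a * g ∈ S := by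
  show a ∈ ((g • S : Sylow 2 G) : Subgroup G) ↔ _
  rw [Sylow.coe_subgroup_smul, Subgroup.mem_pointwise_smul_iff_inv_smul_mem, ← map_inv,
    MulAut.smul_def, MulAut.conj_apply, inv_inv]
  rfl

lemma smul_eq_of_normalizer {g : G} {S : Sylow 2 G}
    (h : g ∈ Subgroup.normalizer ((S : Subgroup G) : Set G)) : g • S = S :=
  Sylow.smul_eq_iff_mem_normalizer.2 h

lemma mul_self_of_orderOf {x : G} (h : orderOf x = 2) : x * x = 1 := by
  rw [← sq, ← h, pow_orderOf_eq_one]

lemma inv_eq_of_orderOf {x : G} (h : orderOf x = 2) : x⁻¹ = x :=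
  inv_eq_of_mul_eq_one_right (mul_self_of_orderOf h)

lemma ne_one_of_orderOf {x : G} (h : orderOf x = 2) : x ≠ 1 := by
  intro e; rw [e, orderOf_one] at h; omega

lemma orderOf_eq_two {x : G} (h : x * x = 1) (h1 : x ≠ 1) : orderOf x = 2 :=
  orderOf_eq_prime (by rw [sq, h]) h1

lemma orderOf_conj (g x : G) : orderOf (g * x * g⁻¹) = orderOf x := by
  rw [← MulAut.conj_apply]
  exact MulEquiv.orderOf_eq (MulAut.conj g) x

/-- Two involutions whose product has odd order are conjugate. -/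
lemma isConj_of_odd {e x : G} (he : orderOf e = 2) (hx : orderOf x = 2) {m : ℕ} (hm : Odd m)
    (h : (e * x) ^ m = 1) : IsConj e x := by
  obtain ⟨k, hk⟩ := hm
  set ρ := e * x with hρ
  have hsc : SemiconjBy x ρ⁻¹ ρ := by
    show x * ρ⁻¹ = ρ * x
    rw [hρ, mul_inv_rev, inv_eq_of_orderOf he, inv_eq_of_orderOf hx, ← mul_assoc,
      mul_self_of_orderOf hx, one_mul, mul_assoc, mul_self_of_orderOf hx, mul_one]
  have h2 := hsc.pow_right (k + 1)
  refine (isConj_iff.2 ⟨ρ ^ (k + 1), ?_⟩).symm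
  rw [← inv_pow, mul_assoc, h2.eq, ← mul_assoc, ← pow_add,
    show k + 1 + (k + 1) = m + 1 by omega, pow_succ, h, one_mul, hρ, mul_assoc,
    mul_self_of_orderOf hx, mul_one]

/-- An involution inverting a 2-element lies with it in a Sylow 2-subgroup. -/
lemma exists_sylow_inv {x r : G} (hx : orderOf x = 2) (hr : ∃ a : ℕ, orderOf r = 2 ^ a)
    (hinv : x * r * x⁻¹ = r⁻¹) : ∃ T : Sylow 2 G, x ∈ T ∧ r ∈ T := by
  obtain ⟨a, ha⟩ := hr
  have h1 : IsPGroup 2 (Subgroup.zpowers x) :=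
    IsPGroup.of_card (n := 1) (by rw [Nat.card_zpowers, hx, pow_one])
  have h2 : IsPGroup 2 (Subgroup.zpowers r) := IsPGroup.of_card (n := a) (by rw [Nat.card_zpowers, ha])
  have hn : Subgroup.zpowers x ≤ Subgroup.normalizer ((Subgroup.zpowers r : Subgroup G) : Set G) := by
    rw [Subgroup.zpowers_le, Subgroup.mem_normalizer_iff]
    have key : ∀ i : ℤ, x * r ^ i * x⁻¹ = r ^ (-i) := fun i => by
      rw [← conj_zpow, hinv, inv_zpow, zpow_neg]
    intro y
    constructor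
    · rintro ⟨i, rfl⟩
      exact ⟨-i, (key i).symm⟩
    · rintro ⟨i, hi⟩
      refine ⟨-i, ?_⟩
      show r ^ (-i) = y
      replace hi : r ^ i = x * y * x⁻¹ := hi
      rw [← key i, hi, inv_eq_of_orderOf hx]
      rw [show x * (x * y * x) * x = (x * x) * y * (x * x) by group, mul_self_of_orderOf hx,
        one_mul, mul_one]
  obtain ⟨T, hT⟩ := (h1.to_sup_of_normal_right' h2 hn).exists_le_sylow
  exact ⟨T, hT (Subgroup.mem_sup_left (Subgroup.mem_zpowers x)),
    hT (Subgroup.mem_sup_right (Subgroup.mem_zpowers r))⟩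

/-- A 2-subgroup centralising an element central in some Sylow 2-subgroup lies in such a subgroup. -/
lemma exists_central_sylow {c : G} {T₀ : Sylow 2 G} (hcen : ∀ t ∈ T₀, t * c = c * t)
    {P : Subgroup G} (hP : IsPGroup 2 P) (hPc : ∀ x ∈ P, x * c = c * x) :
    ∃ x : G, x * c = c * x ∧ P ≤ (x • T₀ : Sylow 2 G) := by
  set X := Subgroup.centralizer ({c} : Set G)
  have hX : ∀ {y : G}, y * c = c * y → y ∈ X := fun {y} hy =>
    Subgroup.mem_centralizer_singleton_iff.2 hy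
  have hT : (T₀ : Subgroup G) ≤ X := fun t ht => hX (hcen t ht)
  have hPX : P ≤ X := fun y hy => hX (hPc y hy)
  have hP' : IsPGroup 2 (P.subgroupOf X) :=
    hP.of_equiv (Subgroup.subgroupOfEquivOfLe hPX).symm
  obtain ⟨Q, hQ⟩ := hP'.exists_le_sylow
  obtain ⟨x, hx⟩ := MulAction.exists_smul_eq X (T₀.subtype hT) Q
  refine ⟨(x : G), Subgroup.mem_centralizer_singleton_iff.1 x.2, fun y hy => ?_⟩
  have hyQ : (⟨y, hPX hy⟩ : X) ∈ Q := hQ (Subgroup.mem_subgroupOf.2 hy)
  rw [← hx] at hyQ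
  change (⟨y, hPX hy⟩ : X) ∈ ((x • T₀.subtype hT : Sylow 2 X) : Subgroup X) at hyQ
  rw [Sylow.coe_subgroup_smul, Subgroup.mem_pointwise_smul_iff_inv_smul_mem, ← map_inv,
    MulAut.smul_def, MulAut.conj_apply, inv_inv] at hyQ
  exact mem_smul.2 hyQ

variable (hI : ∀ S T : Sylow 2 G, S ≠ T → IsCyclic ↥((S : Subgroup G) ⊓ (T : Subgroup G)))
include hI

/-- Distinct Sylow 2-subgroups share at most one involution. -/
lemma eq_of_two_involutions {S T : Sylow 2 G} {x y : G} (hx : orderOf x = 2) (hy : orderOf y = 2)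
    (hne : x ≠ y) (hxS : x ∈ S) (hxT : x ∈ T) (hyS : y ∈ S) (hyT : y ∈ T) : S = T := by
  classical
  by_contra h
  have := hI S T h
  let C := (S : Subgroup G) ⊓ (T : Subgroup G)
  let : Fintype C := Fintype.ofFinite _
  have hle := IsCyclic.card_pow_eq_one_le (α := C) (n := 2) (by norm_num)
  have hsub : ({1, ⟨x, hxS, hxT⟩, ⟨y, hyS, hyT⟩} : Finset C) ⊆
      ({a | a ^ 2 = 1} : Finset C) := by
    intro a ha
    simp only [Finset.mem_insert, Finset.mem_singleton] at ha
    simp only [Finset.mem_filter, Finset.mem_univ, true_and]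
    rcases ha with rfl | rfl | rfl
    · simp
    · exact Subtype.ext (by simpa [sq] using mul_self_of_orderOf hx)
    · exact Subtype.ext (by simpa [sq] using mul_self_of_orderOf hy)
  have h3 : ({1, ⟨x, hxS, hxT⟩, ⟨y, hyS, hyT⟩} : Finset C).card = 3 := by
    rw [Finset.card_eq_three]
    exact ⟨_, _, _, fun e => ne_one_of_orderOf hx (congrArg Subtype.val e).symm,
      fun e => ne_one_of_orderOf hy (congrArg Subtype.val e).symm,
      fun e => hne (congrArg Subtype.val e), rfl⟩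
  have := (Finset.card_le_card hsub).trans hle
  omega

/-- Conjugates of a central involution in the Sylow subgroup are conjugate under its normalizer. -/
lemma exists_normalizer_conj {S : Sylow 2 G} {c : G} (hc : orderOf c = 2) (hcS : c ∈ S)
    (hcen : ∀ s ∈ S, s * c = c * s) {g : G} (hg : g * c * g⁻¹ ∈ S) :
    ∃ n ∈ Subgroup.normalizer ((S : Subgroup G) : Set G), n * c * n⁻¹ = g * c * g⁻¹ := by
  set c' := g * c * g⁻¹ with hc'
  by_cases he : c' = c
  · exact ⟨1, one_mem _, by rw [he]; group⟩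
  have hcen' : ∀ t ∈ g • S, t * c' = c' * t := by
    intro t ht
    have := hcen _ (mem_smul.1 ht)
    rw [hc']
    calc t * (g * c * g⁻¹) = g * (g⁻¹ * t * g * c) * g⁻¹ := by group
      _ = g * (c * (g⁻¹ * t * g)) * g⁻¹ := by rw [this]
      _ = g * c * g⁻¹ * t := by group
  obtain ⟨x, hx, hxle⟩ := exists_central_sylow hcen'
    (P := Subgroup.zpowers c) (IsPGroup.of_card (n := 1) (by rw [Nat.card_zpowers, hc, pow_one]))
    (fun y hy => by
      obtain ⟨i, rfl⟩ := hy
      exact (Commute.zpow_left (show Commute c c' from (hcen c' hg).symm) i).eq)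
  have hc'g : c' ∈ x • g • S := by
    rw [mem_smul, mem_smul, show g⁻¹ * (x⁻¹ * c' * x) * g = g⁻¹ * (x⁻¹ * (c' * x)) * g by group,
      ← hx, inv_mul_cancel_left, hc', show g⁻¹ * (g * c * g⁻¹) * g = c by group]
    exact hcS
  have := eq_of_two_involutions hI (S := S) (T := x • g • S) hc ((orderOf_conj g c).trans hc)
    (fun e => he e.symm) hcS (hxle (Subgroup.mem_zpowers c)) hg hc'g
  rw [← mul_smul] at this
  refine ⟨x * g, Sylow.smul_eq_iff_mem_normalizer.1 this.symm, ?_⟩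
  rw [show x * g * c * (x * g)⁻¹ = x * c' * x⁻¹ by rw [hc']; group, hx]
  group

/-- An involution `e` in a single Sylow subgroup and an involution `c` central in another. -/
lemma exists_product_involution {S T₀ : Sylow 2 G} {e c : G} (he : orderOf e = 2)
    (heS : ∀ T : Sylow 2 G, e ∈ T → T = S) (hc : orderOf c = 2) (hcT : c ∈ T₀)
    (hcen : ∀ t ∈ T₀, t * c = c * t) (hncj : ¬ IsConj e c) (hcS : c ∉ S) :
    ∃ (T₁ : Sylow 2 G) (w : G), T₁ ≠ S ∧ orderOf w = 2 ∧ w ∈ S ∧ w ∈ T₁ ∧ c ∈ T₁ ∧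
      (∀ t ∈ T₁, t * c = c * t) ∧ IsConj e (c * w) := by
  set ρ := e * c with hρ
  obtain ⟨a, m, hm, ho⟩ := Nat.exists_eq_two_pow_mul_odd (orderOf_pos ρ).ne'
  have hodd : ∀ {k : ℕ}, Odd k → ρ ^ k ≠ 1 := fun {k} hk e' => hncj (isConj_of_odd he hc hk e')
  rcases Nat.eq_zero_or_pos a with rfl | ha
  · exact absurd (pow_orderOf_eq_one ρ) (hodd (by rw [ho, pow_zero, one_mul]; exact hm))
  set r := ρ ^ m with hr
  have hro : orderOf r = 2 ^ a := by
    have : m ∣ orderOf ρ := ⟨2 ^ a, by rw [ho, mul_comm]⟩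
    rw [hr, orderOf_pow_of_dvd hm.pos.ne' this, ho, Nat.mul_div_cancel _ hm.pos]
  have hei : e * r * e⁻¹ = r⁻¹ := by
    rw [hr, ← conj_pow, ← inv_pow]
    congr 1
    rw [hρ, mul_inv_rev, inv_eq_of_orderOf he, inv_eq_of_orderOf hc,
      show e * (e * c) * e = e * e * c * e by group, mul_self_of_orderOf he, one_mul]
  have hci : c * r * c⁻¹ = r⁻¹ := by
    rw [hr, ← conj_pow, ← inv_pow]
    congr 1
    rw [hρ, mul_inv_rev, inv_eq_of_orderOf he, inv_eq_of_orderOf hc,
      show c * (e * c) * c = c * e * (c * c) by group, mul_self_of_orderOf hc, mul_one]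
  obtain ⟨T, heT, hrT⟩ := exists_sylow_inv he ⟨a, hro⟩ hei
  have hrS : r ∈ S := heS T heT ▸ hrT
  set w := r ^ (2 ^ (a - 1)) with hw
  have hwo : orderOf w = 2 := by
    rw [hw, orderOf_pow_of_dvd (pow_ne_zero _ two_ne_zero) (hro ▸ Nat.pow_dvd_pow 2 (Nat.sub_le a 1)),
      hro, Nat.pow_div (Nat.sub_le a 1) two_pos, show a - (a - 1) = 1 by omega, pow_one]
  have hwS : w ∈ S := (S : Subgroup G).pow_mem hrS _
  have hwc : Commute c w := by
    have h := conj_pow (i := 2 ^ (a - 1)) (a := c) (b := r)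
    rw [hci, inv_pow, ← hw, inv_eq_of_orderOf hwo] at h
    exact (mul_inv_eq_iff_eq_mul.1 h.symm : c * w = w * c)
  obtain ⟨T₁, hcT₁, hrT₁⟩ := exists_sylow_inv hc ⟨a, hro⟩ hci
  have hwne : c ≠ w := fun e' => hcS (e' ▸ hwS)
  obtain ⟨x, hx, hxle⟩ := exists_central_sylow hcen
    (P := Subgroup.zpowers w) (IsPGroup.of_card (n := 1) (by rw [Nat.card_zpowers, hwo, pow_one]))
    (fun y hy => by obtain ⟨i, rfl⟩ := hy; exact (hwc.symm.zpow_left i).eq)
  have hcx : c ∈ x • T₀ := by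
    rw [mem_smul, mul_assoc, ← hx, inv_mul_cancel_left]; exact hcT
  have hT := eq_of_two_involutions hI (S := T₁) (T := x • T₀) hc hwo hwne hcT₁ hcx
    ((T₁ : Subgroup G).pow_mem hrT₁ _) (hxle (Subgroup.mem_zpowers w))
  have hcen₁ : ∀ t ∈ T₁, t * c = c * t := by
    intro t ht
    rw [hT, mem_smul] at ht
    have := hcen _ ht
    calc t * c = x * (x⁻¹ * t * (x * c)) * x⁻¹ * (x * x⁻¹) := by
          rw [hx]; group
      _ = x * (x⁻¹ * t * x * c) * x⁻¹ := by group
      _ = x * (c * (x⁻¹ * t * x)) * x⁻¹ := by rw [this]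
      _ = x * c * x⁻¹ * t := by group
      _ = c * t := by rw [hx]; group
  have hr2 : r ^ 2 = 1 := by
    have h : r⁻¹ = r := by rw [← hci, ← hcen₁ r hrT₁]; group
    rw [sq]; exact mul_eq_one_iff_eq_inv.2 h.symm
  have ha1 : a = 1 := by
    have h := Nat.le_of_dvd two_pos (hro ▸ orderOf_dvd_of_pow_eq_one hr2)
    have : 2 ^ a ≤ 2 ^ 1 := by simpa using h
    exact le_antisymm ((Nat.pow_le_pow_iff_right one_lt_two).1 this) ha
  subst ha1
  have hwr : w = ρ ^ m := by rw [hw]; simp [hr]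
  refine ⟨T₁, w, fun e' => hcS (e' ▸ hcT₁), hwo, hwS, (T₁ : Subgroup G).pow_mem hrT₁ _, hcT₁,
    hcen₁, ?_⟩
  have hcw : orderOf (c * w) = 2 := by
    refine orderOf_eq_two ?_ fun e' => hwne ?_
    · rw [show c * w * (c * w) = c * (w * c) * w by group, ← hwc.eq,
        show c * (c * w) * w = c * c * (w * w) by group, mul_self_of_orderOf hc,
        mul_self_of_orderOf hwo, one_mul]
    · rw [← inv_eq_of_orderOf hwo]; exact mul_eq_one_iff_eq_inv.1 e'
  refine isConj_of_odd he hcw hm ?_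
  rw [← mul_assoc, ← hρ, hwr, ← pow_succ', ← pow_mul]
  refine orderOf_dvd_iff_pow_eq_one.1 ?_
  obtain ⟨k, hk⟩ := hm
  exact ⟨k + 1, by rw [ho, hk]; ring⟩

/-- The main contradiction. -/
theorem false_of_unique_involution (hO : Cfsg.pPrimeCore 2 G = ⊥)
    (h2 : ∀ N : Subgroup G, N.Normal → IsPGroup 2 N → N = ⊥)
    (S : Sylow 2 G) (z : G) (hz : orderOf z = 2) (hzS : z ∈ S)
    (hzU : ∀ T : Sylow 2 G, z ∈ T → T = S)
    (hzN : ∀ n ∈ Subgroup.normalizer ((S : Subgroup G) : Set G), ∃ s ∈ S, n * z * n⁻¹ = s * z * s⁻¹)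
    (hB : ∀ x y : G, orderOf x = 2 → orderOf y = 2 → x ≠ y → Commute x y →
      (∃ T : Sylow 2 G, T ≠ S ∧ x ∈ T) → (∃ T : Sylow 2 G, T ≠ S ∧ y ∈ T) → x ∈ S → y ∈ S →
      ∀ T : Sylow 2 G, x * y ∈ T → T = S) : False := by
  classical
  let Cen : G → Prop := fun c => orderOf c = 2 ∧ c ∈ S ∧ ∀ s ∈ S, s * c = c * s
  -- central involutions are moved by the normalizer
  have hfix : ∀ c, Cen c → ¬ ∀ n ∈ Subgroup.normalizer ((S : Subgroup G) : Set G), n * c * n⁻¹ = c := by
    intro c ⟨hc, hcS, hcen⟩ hf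
    have hiso := H28.isIsolatedInvolution_of_sylow S hc (fun g hg => by
      obtain ⟨n, hn, he⟩ := exists_normalizer_conj hI hc hcS hcen hg
      rw [← he]; exact hf n hn)
    have hce : c ∈ Subgroup.center G := by
      rw [Subgroup.mem_center_iff]
      intro g
      have h := H28.zStar hiso g
      rw [hO, Subgroup.mem_bot, mul_inv_eq_one, mul_inv_eq_iff_eq_mul] at h
      exact h.symm
    have hnor : (Subgroup.zpowers c).Normal :=
      ⟨fun y hy g => by
        have hy' : y ∈ Subgroup.center G := Subgroup.zpowers_le.2 hce hy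
        rw [Subgroup.mem_center_iff.1 hy' g, mul_inv_cancel_right]; exact hy⟩
    have := h2 _ hnor (IsPGroup.of_card (n := 1) (by rw [Nat.card_zpowers, hc, pow_one]))
    exact ne_one_of_orderOf hc (Subgroup.zpowers_eq_bot.1 this)
  have hconjS : ∀ n ∈ Subgroup.normalizer ((S : Subgroup G) : Set G), ∀ y, y ∈ S → n * y * n⁻¹ ∈ S :=
    fun n hn y hy => (Subgroup.mem_normalizer_iff.1 hn y).1 hy
  have hCenConj : ∀ n ∈ Subgroup.normalizer ((S : Subgroup G) : Set G), ∀ c, Cen c → Cen (n * c * n⁻¹) := by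
    intro n hn c ⟨hc, hcS, hcen⟩
    refine ⟨(orderOf_conj n c).trans hc, hconjS n hn c hcS, fun s hs => ?_⟩
    have hs' : n⁻¹ * s * n ∈ S := by
      simpa using hconjS n⁻¹ (inv_mem hn) s hs
    calc s * (n * c * n⁻¹) = n * (n⁻¹ * s * n * c) * n⁻¹ := by group
      _ = n * (c * (n⁻¹ * s * n)) * n⁻¹ := by rw [hcen _ hs']
      _ = n * c * n⁻¹ * s := by group
  have hzcen : ¬ Cen z := fun h => hfix z h fun n hn => by
    obtain ⟨s, hs, he⟩ := hzN n hn
    rw [he, h.2.2 s hs, mul_inv_cancel_right]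
  have hzc : ∀ c, Cen c → ¬ IsConj z c := by
    intro c ⟨hc, hcS, hcen⟩ h
    obtain ⟨g, hg⟩ := isConj_iff.1 h.symm
    have h1 : z ∈ g • S := by rw [mem_smul, ← hg]; simpa [mul_assoc] using hcS
    refine hzcen ⟨hz, hzS, fun s hs => ?_⟩
    have hs' : g⁻¹ * s * g ∈ S := mem_smul.1 (by rw [hzU _ h1]; exact hs)
    calc s * z = g * (g⁻¹ * s * g * c) * g⁻¹ := by rw [← hg]; group
      _ = g * (c * (g⁻¹ * s * g)) * g⁻¹ := by rw [hcen _ hs']
      _ = z * s := by rw [← hg]; group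
  -- the product of `z` with a central involution lies in two Sylow subgroups
  have hBz : ∀ c, Cen c → ∃ T : Sylow 2 G, T ≠ S ∧ c * z ∈ T := by
    intro c hcc
    obtain ⟨hc, hcS, hcen⟩ := id hcc
    obtain ⟨g, hg⟩ : ∃ g : G, g * c * g⁻¹ ∉ S := by
      by_contra hall
      push Not at hall
      have hle : Subgroup.normalClosure ({c} : Set G) ≤ (S : Subgroup G) := by
        rw [Subgroup.normalClosure, Subgroup.closure_le]
        intro y hy
        rw [Group.mem_conjugatesOfSet_iff] at hy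
        obtain ⟨c₁, hc₁, hconj⟩ := hy
        rw [Set.mem_singleton_iff] at hc₁
        subst hc₁
        obtain ⟨g, rfl⟩ := isConj_iff.1 hconj
        exact hall g
      have := h2 _ Subgroup.normalClosure_normal (S.2.to_le hle)
      exact ne_one_of_orderOf hc (Subgroup.mem_bot.1 (this ▸
        Subgroup.subset_normalClosure (Set.mem_singleton c)))
    set c' := g * c * g⁻¹ with hc'
    have hcT : c' ∈ g • S := by rw [mem_smul, hc']; simpa [mul_assoc] using hcS
    have hcenT : ∀ t ∈ g • S, t * c' = c' * t := by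
      intro t ht
      rw [hc']
      calc t * (g * c * g⁻¹) = g * (g⁻¹ * t * g * c) * g⁻¹ := by group
        _ = g * (c * (g⁻¹ * t * g)) * g⁻¹ := by rw [hcen _ (mem_smul.1 ht)]
        _ = g * c * g⁻¹ * t := by group
    have hncj : ¬ IsConj z c' := fun h =>
      hzc c hcc (h.trans (isConj_iff.2 ⟨g, hc'.symm⟩).symm)
    obtain ⟨T₁, w, hT₁, -, hwS, hwT, hcT₁, hcen₁, hzw⟩ :=
      exists_product_involution hI hz hzU ((orderOf_conj g c).trans hc) hcT hcenT hncj hg
    obtain ⟨k, rfl⟩ := MulAction.exists_smul_eq G S T₁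
    set c₂ := k⁻¹ * c' * k with hc₂
    obtain ⟨n, hn, hnc⟩ := exists_normalizer_conj hI hc hcS hcen (g := k⁻¹ * g)
      (by rw [show k⁻¹ * g * c * (k⁻¹ * g)⁻¹ = k⁻¹ * c' * k by rw [hc']; group]
          exact mem_smul.1 hcT₁)
    rw [show k⁻¹ * g * c * (k⁻¹ * g)⁻¹ = c₂ by rw [hc₂, hc']; group] at hnc
    obtain ⟨g₂, hg₂⟩ := isConj_iff.1 (hzw.trans
      (isConj_iff.2 ⟨k⁻¹, rfl⟩ : IsConj (c' * w) (k⁻¹ * (c' * w) * k⁻¹⁻¹)))
    rw [inv_inv] at hg₂
    have hmem : g₂ * z * g₂⁻¹ ∈ S := by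
      rw [hg₂]; exact mem_smul.1 ((k • S : Sylow 2 G).1.mul_mem hcT₁ hwT)
    have hgN : g₂ ∈ Subgroup.normalizer ((S : Subgroup G) : Set G) := by
      have := hzU (g₂⁻¹ • S) (by rw [mem_smul, inv_inv]; exact hmem)
      have h := Sylow.smul_eq_iff_mem_normalizer.1 this
      simpa using inv_mem h
    obtain ⟨s, hs, hse⟩ := hzN _ (mul_mem (inv_mem hn) hgN)
    -- express `z`
    have hz' : c * z = s⁻¹ * (n⁻¹ * (k⁻¹ * w * k) * n) * s := by
      have h1 : s * z * s⁻¹ = c * (n⁻¹ * (k⁻¹ * w * k) * n) := by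
        rw [← hse]
        calc n⁻¹ * g₂ * z * (n⁻¹ * g₂)⁻¹ = n⁻¹ * (g₂ * z * g₂⁻¹) * n := by group
          _ = n⁻¹ * (n * c * n⁻¹ * (k⁻¹ * w * k)) * n := by rw [hg₂, hnc, hc₂]; group
          _ = _ := by group
      calc c * z = c * (s⁻¹ * (s * z * s⁻¹) * s) := by group
        _ = c * (s⁻¹ * (c * (n⁻¹ * (k⁻¹ * w * k) * n)) * s) := by rw [h1]
        _ = c * ((s⁻¹ * c) * (n⁻¹ * (k⁻¹ * w * k) * n)) * s := by group
        _ = c * c * (s⁻¹ * (n⁻¹ * (k⁻¹ * w * k) * n)) * s := by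
          rw [hcen _ (inv_mem hs)]; group
        _ = _ := by rw [mul_self_of_orderOf hc, one_mul]
    have hnN : n * s ∈ Subgroup.normalizer ((S : Subgroup G) : Set G) :=
      mul_mem hn (Subgroup.le_normalizer hs)
    refine ⟨(n * s)⁻¹ • k⁻¹ • S, fun e => hT₁ ?_, ?_⟩
    · rw [inv_smul_eq_iff, smul_eq_of_normalizer hnN, inv_smul_eq_iff] at e
      exact e.symm
    · rw [mem_smul, mem_smul, hz']
      simpa [mul_assoc] using hwS
  -- central involutions lie in several Sylow subgroups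
  have hcB : ∀ c, Cen c → ∃ T : Sylow 2 G, T ≠ S ∧ c ∈ T := by
    intro c hcc
    by_contra hno
    push Not at hno
    have hcU : ∀ T : Sylow 2 G, c ∈ T → T = S := fun T hT => by
      by_contra hne; exact hno T hne hT
    obtain ⟨hc, hcS, hcen⟩ := hcc
    obtain ⟨n, hn, hne⟩ : ∃ n ∈ Subgroup.normalizer ((S : Subgroup G) : Set G), n * c * n⁻¹ ≠ c := by
      by_contra hall
      push Not at hall
      exact hfix c ⟨hc, hcS, hcen⟩ hall
    set c' := n * c * n⁻¹ with hc'
    have hcc' := hCenConj n hn c ⟨hc, hcS, hcen⟩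
    rw [← hc'] at hcc'
    obtain ⟨T, hT, hwT⟩ := hBz c' hcc'
    obtain ⟨k, rfl⟩ := MulAction.exists_smul_eq G S T
    set e := k * z * k⁻¹ with he
    have heU : ∀ T : Sylow 2 G, e ∈ T → T = k • S := fun T hT' => by
      have := hzU (k⁻¹ • T) (by rw [mem_smul, inv_inv]; exact hT')
      rw [← this, smul_inv_smul]
    have hncj : ¬ IsConj e c := fun h =>
      hzc c ⟨hc, hcS, hcen⟩ ((isConj_iff.2 ⟨k, he.symm⟩).trans h)
    obtain ⟨T₁, w', -, hw'o, hw'T, hw'T₁, hcT₁, -, hew⟩ :=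
      exists_product_involution hI ((orderOf_conj k z).trans hz) heU hc hcS hcen hncj
        (fun h => hT (hcU _ h))
    rw [hcU T₁ hcT₁] at hw'T₁
    have hc'z : orderOf (c' * z) = 2 := by
      refine orderOf_eq_two ?_ fun e' => hzcen ?_
      · rw [show c' * z * (c' * z) = c' * (z * c') * z by group, hcc'.2.2 z hzS,
          show c' * (c' * z) * z = c' * c' * (z * z) by group, mul_self_of_orderOf hcc'.1,
          mul_self_of_orderOf hz, one_mul]
      · have : c' = z := by rw [← inv_eq_of_orderOf hz]; exact mul_eq_one_iff_eq_inv.1 e'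
        exact this ▸ hcc'
    have hw : w' = c' * z := by
      by_contra hne'
      exact hT (eq_of_two_involutions hI hw'o hc'z hne' hw'T₁ hw'T
        ((S : Subgroup G).mul_mem hcc'.2.1 hzS) hwT).symm
    have hd : Cen (c * c') := by
      refine ⟨orderOf_eq_two ?_ fun e' => hne ?_, (S : Subgroup G).mul_mem hcS hcc'.2.1, fun s hs => ?_⟩
      · rw [show c * c' * (c * c') = c * (c' * c) * c' by group, hcen c' hcc'.2.1,
          show c * (c * c') * c' = c * c * (c' * c') by group, mul_self_of_orderOf hc,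
          mul_self_of_orderOf hcc'.1, one_mul]
      · have : c = c' := by rw [← inv_eq_of_orderOf hcc'.1]; exact mul_eq_one_iff_eq_inv.1 e'
        exact this.symm
      · rw [← mul_assoc, hcen s hs, mul_assoc, hcc'.2.2 s hs]; group
    obtain ⟨T', hT', hcwT'⟩ := hBz _ hd
    obtain ⟨h, hh⟩ := isConj_iff.1 ((isConj_iff.2 ⟨k, he.symm⟩ : IsConj z e).trans hew)
    have hcw : c * w' = c * c' * z := by rw [hw]; group
    rw [← hcw, ← hh] at hcwT'
    have h1 := hzU (h⁻¹ • T') (by rw [mem_smul, inv_inv]; exact hcwT')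
    have h2' := hzU (h⁻¹ • S) (by
      rw [mem_smul, inv_inv, hh, hcw]; exact (S : Subgroup G).mul_mem ((S : Subgroup G).mul_mem hcS hcc'.2.1) hzS)
    rw [inv_smul_eq_iff] at h1 h2'
    exact hT' (h1.trans h2'.symm)
  -- conclusion
  obtain ⟨c, hc⟩ : ∃ c, Cen c := by
    have : Fact (Nat.Prime 2) := ⟨Nat.prime_two⟩
    have hne : (S : Subgroup G) ≠ ⊥ := fun e => ne_one_of_orderOf hz (Subgroup.mem_bot.1 (e ▸ hzS))
    have : Nontrivial (S : Subgroup G) := (Subgroup.nontrivial_iff_ne_bot _).2 hne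
    have hZ := S.2.center_nontrivial
    obtain ⟨x, hx⟩ := exists_prime_orderOf_dvd_card' (G := Subgroup.center (S : Subgroup G)) 2 (by
      obtain ⟨k, hk⟩ := (S.2.to_subgroup (Subgroup.center (S : Subgroup G))).exists_card_eq
      rcases Nat.eq_zero_or_pos k with rfl | hk0
      · have := Finite.one_lt_card_iff_nontrivial.2 hZ
        rw [hk, pow_zero] at this; omega
      · rw [hk]; exact dvd_pow_self 2 hk0.ne')
    refine ⟨((x : (S : Subgroup G)) : G), ?_, (x : (S : Subgroup G)).2, fun s hs => ?_⟩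
    · rw [Subgroup.orderOf_coe, Subgroup.orderOf_coe, hx]
    · exact congrArg Subtype.val (Subgroup.mem_center_iff.1 x.2 ⟨s, hs⟩)
  obtain ⟨n, hn, hne⟩ : ∃ n ∈ Subgroup.normalizer ((S : Subgroup G) : Set G), n * c * n⁻¹ ≠ c := by
    by_contra hall
    push Not at hall
    exact hfix c hc hall
  have hc' := hCenConj n hn c hc
  set c' := n * c * n⁻¹
  have hd : Cen (c * c') := by
    obtain ⟨hco, hcS, hcen⟩ := hc
    refine ⟨orderOf_eq_two ?_ fun e' => hne ?_, (S : Subgroup G).mul_mem hcS hc'.2.1, fun s hs => ?_⟩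
    · rw [show c * c' * (c * c') = c * (c' * c) * c' by group, hcen c' hc'.2.1,
        show c * (c * c') * c' = c * c * (c' * c') by group, mul_self_of_orderOf hco,
        mul_self_of_orderOf hc'.1, one_mul]
    · have : c = c' := by rw [← inv_eq_of_orderOf hc'.1]; exact mul_eq_one_iff_eq_inv.1 e'
      exact this.symm
    · rw [← mul_assoc, hcen s hs, mul_assoc, hc'.2.2 s hs]; group
  obtain ⟨T, hT, hdT⟩ := hcB _ hd
  exact hT (hB c c' hc.1 hc'.1 hne.symm (hc'.2.2 c hc.2.1) (hcB c hc) (hcB c' hc') hc.2.1 hc'.2.1 T hdT)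

end Cfsg.Agent.H79.InvCyclic
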