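import Cfsg.Agent.H79.InvCyclic.Contra
import Cfsg.Agent.H20.FixedPoints

/-!
# Solvable normal subgroups when Sylow 2-intersections are cyclic
-/

set_option autoImplicit false

open scoped Pointwise

namespace Cfsg.Agent.H79.InvCyclic

universe u

variable {G : Type u} [Group G] [Finite G]

/-- Odd order groups are solvable. -/
def OddSolvable : Prop :=
  ∀ (K : Type u) [Group K] [Finite K], Odd (Nat.card K) → Group.IsSolvable K

lemma mem_zpowers_of_dvd {C : Type*} [Group C] [Finite C] [IsCyclic C] {x w : C}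
    (h : orderOf x ∣ orderOf w) : x ∈ Subgroup.zpowers w := by
  classical
  let : Fintype C := Fintype.ofFinite C
  by_contra hx
  set k := orderOf w
  let s : Finset C := Finset.univ.filter fun a => a ∈ Subgroup.zpowers w
  have hs : s.card = k := by
    rw [← Fintype.card_subtype, ← Nat.card_eq_fintype_card]
    exact Nat.card_zpowers w
  have hsub : insert x s ⊆ ({a | a ^ k = 1} : Finset C) := by
    intro a ha
    simp only [Finset.mem_filter, Finset.mem_univ, true_and]
    rcases Finset.mem_insert.1 ha with rfl | ha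
    · exact orderOf_dvd_iff_pow_eq_one.1 h
    · obtain ⟨i, rfl⟩ := (Finset.mem_filter.1 ha).2
      rw [← zpow_natCast, zpow_comm, zpow_natCast, pow_orderOf_eq_one, one_zpow]
  have h2 := (Finset.card_le_card hsub).trans (IsCyclic.card_pow_eq_one_le (orderOf_pos w))
  rw [Finset.card_insert_of_notMem (by simp [s, hx]), hs] at h2
  omega

/-- In a cyclic 2-group an element outside a subgroup generates a larger one. -/
lemma le_zpowers_of_notMem {C V : Subgroup G} (hC : IsCyclic C) (hC2 : IsPGroup 2 C) (hV : V ≤ C)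
    {w : G} (hw : w ∈ C) (hwV : w ∉ V) : V ≤ Subgroup.zpowers w := by
  intro x hx
  obtain ⟨i, hi⟩ := IsPGroup.iff_orderOf.1 hC2 ⟨w, hw⟩
  obtain ⟨j, hj⟩ := IsPGroup.iff_orderOf.1 hC2 ⟨x, hV hx⟩
  rcases le_total j i with hji | hij
  · have h := mem_zpowers_of_dvd (x := (⟨x, hV hx⟩ : C)) (w := ⟨w, hw⟩)
      (by rw [hi, hj]; exact Nat.pow_dvd_pow 2 hji)
    obtain ⟨k, hk⟩ := h
    exact ⟨k, congrArg Subtype.val hk⟩
  · have h := mem_zpowers_of_dvd (x := (⟨w, hw⟩ : C)) (w := ⟨x, hV hx⟩)
      (by rw [hi, hj]; exact Nat.pow_dvd_pow 2 hij)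
    obtain ⟨k, hk⟩ := h
    have e : x ^ k = w := congrArg Subtype.val hk
    exact absurd (e ▸ V.zpow_mem hx k) hwV

lemma isPGroup_two_iff_orderOf {C : Subgroup G} (hC : IsPGroup 2 C) {x : G} (hx : x ∈ C) :
    ∃ a : ℕ, orderOf x = 2 ^ a := by
  obtain ⟨a, ha⟩ := IsPGroup.iff_orderOf.1 hC ⟨x, hx⟩
  exact ⟨a, by rw [← ha, ← Subgroup.orderOf_coe]⟩

/-- A normal subgroup with trivial odd core part and nilpotent is a 2-group. -/
lemma isPGroup_of_nilpotent_normal (hO : Cfsg.pPrimeCore 2 G = ⊥) (X : Subgroup G) [X.Normal]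
    (hX : Group.IsNilpotent X) : IsPGroup 2 X := by
  have key : ∀ q : ℕ, q.Prime → q ∣ Nat.card X → q = 2 := by
    intro q hq hdvd
    by_contra hne
    have := Fact.mk hq
    obtain ⟨P⟩ : Nonempty (Sylow q X) := inferInstance
    have hPn : (P : Subgroup X).Normal := Sylow.normal_of_normalizerCondition Group.normalizerCondition_of_isNilpotent P
    have := P.characteristic_of_normal hPn
    have hle := H19.le_pPrimeCore (p := 2) (N := (P : Subgroup X).map X.subtype)
      ConjAct.normal_of_characteristic_of_normal (by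
        obtain ⟨k, hk⟩ := (P.2.map X.subtype).exists_card_eq
        rw [hk]
        exact Nat.Coprime.pow_left k ((Nat.coprime_primes hq Nat.prime_two).2 hne))
    rw [hO, le_bot_iff, Subgroup.map_eq_bot_iff_of_injective _ X.subtype_injective] at hle
    exact P.ne_bot_of_dvd_card hdvd hle
  rcases Nat.eq_zero_or_pos (Nat.card X) with h0 | h0
  · exact absurd h0 Nat.card_pos.ne'
  refine IsPGroup.of_card (n := (Nat.card X).primeFactorsList.length) ?_
  have := Nat.eq_prime_pow_of_unique_prime_dvd h0.ne' (fun {d} hd hdd => key d hd hdd)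
  exact this

variable (hI : ∀ S T : Sylow 2 G, S ≠ T → IsCyclic ↥((S : Subgroup G) ⊓ (T : Subgroup G)))
  (hO : Cfsg.pPrimeCore 2 G = ⊥)

lemma isSolvable_of_quotient {H : Type*} [Group H] (N : Subgroup H) [N.Normal]
    (h1 : Group.IsSolvable N) (h2 : Group.IsSolvable (H ⧸ N)) : Group.IsSolvable H :=
  Group.isSolvable_of_ker_le_range N.subtype (QuotientGroup.mk' N) (by simp)

lemma exists_two_sylow (hFT : OddSolvable.{u}) (hns : ¬ Group.IsSolvable G) :
    ∃ S T : Sylow 2 G, S ≠ T := by
  by_contra hall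
  push Not at hall
  obtain ⟨S⟩ : Nonempty (Sylow 2 G) := inferInstance
  have : Subsingleton (Sylow 2 G) := ⟨hall⟩
  have hSn := S.normal_of_subsingleton
  have h1 : Group.IsSolvable (S : Subgroup G) := by
    have := S.2.isNilpotent
    infer_instance
  refine hns (isSolvable_of_quotient (S : Subgroup G) h1 (hFT _ ?_))
  rw [Nat.odd_iff]
  have := S.not_dvd_index
  rw [Subgroup.index_eq_card] at this
  omega

include hI hO

/-- The main step, with trivial odd core. -/
theorem core_step (hFT : OddSolvable.{u}) (hns : ¬ Group.IsSolvable G)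
    (N : Subgroup G) [N.Normal] (hN : Group.IsSolvable N) :
    IsCyclic N ∧ IsPGroup 2 N ∧ N ≤ Subgroup.center G := by
  classical
  have : Fact (Nat.Prime 2) := ⟨Nat.prime_two⟩
  obtain ⟨S₁, T₁, hST⟩ := exists_two_sylow hFT hns
  set V := Cfsg.pCore 2 G with hVdef
  have hVn : V.Normal := H19.pCore_normal 2 G
  have hV2 : IsPGroup 2 V := H19.pCore_isPGroup 2
  have hVle : ∀ S : Sylow 2 G, V ≤ (S : Subgroup G) := fun S => by
    have h := S.is_maximal' (IsPGroup.to_sup_of_normal_left hV2 S.2) le_sup_right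
    exact h ▸ le_sup_left
  have hVc : IsCyclic V := by
    have := hI S₁ T₁ hST
    exact isCyclic_of_surjective _
      (Subgroup.subgroupOfEquivOfLe (le_inf (hVle S₁) (hVle T₁))).surjective
  have hVcomm : ∀ a ∈ V, ∀ b ∈ V, a * b = b * a := fun a ha b hb =>
    congrArg Subtype.val (IsCyclic.commGroup.mul_comm (⟨a, ha⟩ : V) ⟨b, hb⟩)
  set φ : G →* MulAut V := MulAut.conjNormal
  have hker : ∀ g : G, g ∈ φ.ker ↔ ∀ v ∈ V, g * v = v * g := by
    intro g
    rw [MonoidHom.mem_ker, MulEquiv.ext_iff]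
    constructor
    · intro h v hv
      have := congrArg Subtype.val (h ⟨v, hv⟩)
      rw [MulAut.conjNormal_apply] at this
      exact mul_inv_eq_iff_eq_mul.1 this
    · intro h v
      refine Subtype.ext ?_
      rw [MulAut.conjNormal_apply, h v v.2, mul_inv_cancel_right]; rfl
  have hA2 : IsPGroup 2 (MulAut V) := by
    obtain ⟨n, hn⟩ := hV2.exists_card_eq
    rcases Nat.eq_zero_or_pos n with rfl | hn0
    · exact IsPGroup.of_card (n := 0) (by rw [IsCyclic.card_mulAut, hn]; simp)
    · exact IsPGroup.of_card (n := n - 1)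
        (by rw [IsCyclic.card_mulAut, hn, Nat.totient_prime_pow Nat.prime_two hn0]; simp)
  -- the solvable subgroup lies in the 2-core
  have hW : N ⊓ φ.ker ≤ V := by
    set W := N ⊓ φ.ker
    have hWs : Group.IsSolvable W := by
      exact H20.isSolvable_of_le inf_le_left hN
    obtain ⟨k, hk⟩ := hWs.1
    let D : ℕ → Subgroup G := fun j => (derivedSeries W j).map W.subtype
    have hDk : D k ≤ V := by simp [D, hk]
    clear hk
    induction k with
    | zero => simpa [D, ← MonoidHom.range_eq_map] using hDk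
    | succ j ih =>
      refine ih ?_
      have hnorm : (D j).Normal := ConjAct.normal_of_characteristic_of_normal
      have hsucc : D (j + 1) = ⁅D j, D j⁆ := by
        simp only [D, derivedSeries_succ, Subgroup.map_commutator]
      rw [hsucc] at hDk
      have hle : D j ≤ φ.ker := (Subgroup.map_subtype_le _).trans inf_le_right
      have hnil : Group.IsNilpotent (D j) := by
        refine Group.of_quotient_center_nilpotent ?_
        have : IsMulCommutative (D j ⧸ Subgroup.center (D j)) := by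
          refine ⟨⟨fun a b => ?_⟩⟩
          induction a using QuotientGroup.induction_on with | H a => ?_
          induction b using QuotientGroup.induction_on with | H b => ?_
          rw [← QuotientGroup.mk_mul, ← QuotientGroup.mk_mul, eq_comm, QuotientGroup.eq,
            Subgroup.mem_center_iff]
          intro x
          apply Subtype.ext
          have hm : (a : G)⁻¹ * (b : G)⁻¹ * (a : G) * (b : G) ∈ V := by
            have h := hDk (Subgroup.commutator_mem_commutator (inv_mem a.2) (inv_mem b.2))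
            rw [commutatorElement_def, inv_inv, inv_inv] at h
            exact h
          have h := (hker x).1 (hle x.2) _ hm
          simp only [Subgroup.coe_mul, Subgroup.coe_inv]
          simpa [mul_assoc, mul_inv_rev] using h
        letI : CommGroup (D j ⧸ Subgroup.center (D j)) :=
          { (inferInstance : Group (D j ⧸ Subgroup.center (D j))) with mul_comm := fun a b => mul_comm' a b }
        exact CommGroup.isNilpotent
      exact H19.le_pCore hnorm (isPGroup_of_nilpotent_normal hO (D j) hnil)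
  have hN2 : IsPGroup 2 N := by
    have hW2 : IsPGroup 2 (φ.comp N.subtype).ker := by
      intro x
      obtain ⟨a, ha⟩ := hV2 ⟨((x : N) : G), hW ⟨(x : N).2, x.2⟩⟩
      refine ⟨a, Subtype.ext (Subtype.ext ?_)⟩
      simpa using congrArg Subtype.val ha
    have h := IsPGroup.comap_of_ker_isPGroup (IsPGroup.to_subgroup hA2 ⊤) (φ.comp N.subtype) hW2
    rw [Subgroup.comap_top] at h
    exact h.of_equiv Subgroup.topEquiv
  have hNV : N ≤ V := H19.le_pCore ‹_› hN2
  refine ⟨isCyclic_of_surjective _ (Subgroup.subgroupOfEquivOfLe hNV).surjective, hN2, ?_⟩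
  refine hNV.trans ?_
  by_contra hVZ
  -- an element outside the centralizer
  obtain ⟨S⟩ : Nonempty (Sylow 2 G) := inferInstance
  obtain ⟨y, hyS, hyK⟩ : ∃ y ∈ S, y ∉ φ.ker := by
    by_contra hall
    push Not at hall
    have hle : (S : Subgroup G) ≤ φ.ker := hall
    obtain ⟨n, hn⟩ := (IsPGroup.to_subgroup hA2 φ.range).exists_card_eq
    rw [← Subgroup.index_ker] at hn
    rcases Nat.eq_zero_or_pos n with rfl | hn0
    · have htop : φ.ker = ⊤ := Subgroup.index_eq_one.1 (by simpa using hn)
      exact hVZ fun v hv => Subgroup.mem_center_iff.2 fun g =>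
        (hker g).1 (htop ▸ Subgroup.mem_top g) v hv
    · exact S.not_dvd_index ((hn ▸ dvd_pow_self 2 hn0.ne').trans (Subgroup.index_dvd_of_le hle))
  have hV4 : 4 ≤ Nat.card V := by
    by_contra hlt
    refine hyK ((hker y).2 fun v hv => ?_)
    rcases eq_or_ne v 1 with rfl | hv1
    · simp
    have hne : ∀ u ∈ V, u = 1 ∨ u = v := by
      obtain ⟨n, hn⟩ := hV2.exists_card_eq
      have hle : Nat.card V ≤ 2 := by
        rcases Nat.lt_or_ge n 2 with h | h
        · interval_cases n <;> simp [hn]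
        · have := Nat.pow_le_pow_right two_pos h; omega
      intro u hu
      by_contra h
      push Not at h
      have h3 : ({1, ⟨u, hu⟩, ⟨v, hv⟩} : Finset V).card = 3 := by
        rw [Finset.card_eq_three]
        exact ⟨_, _, _, fun e => h.1 (congrArg Subtype.val e).symm,
          fun e => hv1 (congrArg Subtype.val e).symm, fun e => h.2 (congrArg Subtype.val e), rfl⟩
      let : Fintype V := Fintype.ofFinite _
      have := (Finset.card_le_univ ({1, ⟨u, hu⟩, ⟨v, hv⟩} : Finset V)).trans_eq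
        (Nat.card_eq_fintype_card (α := V)).symm
      omega
    rcases hne _ (hVn.conj_mem v hv y) with e | e
    · exact absurd (by simpa [mul_inv_eq_one] using e) hv1
    · exact mul_inv_eq_iff_eq_mul.1 e
  -- a fixed element in the coset
  set M := Subgroup.normalizer ((S : Subgroup G) : Set G)
  have hcopM : (Nat.card (S : Subgroup G)).Coprime ((S : Subgroup G).relIndex M) := by
    obtain ⟨n, hn⟩ := S.2.exists_card_eq
    rw [hn]
    refine Nat.Coprime.pow_left n ((Nat.Prime.coprime_iff_not_dvd Nat.prime_two).2 fun h => ?_)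
    exact S.not_dvd_index (h.trans (Dvd.intro _ (Subgroup.relIndex_mul_index Subgroup.le_normalizer)))
  obtain ⟨A, hAM, hSA, hAc⟩ := H20.exists_complement_of_coprime (N := (S : Subgroup G))
    Subgroup.le_normalizer (le_refl M) hcopM
  obtain ⟨c, hc, hyc⟩ := H20.exists_fixed_mem_coset (A := A) (K := (S : Subgroup G))
    (N := (S : Subgroup G) ⊓ φ.ker) (by rw [hAc]; exact hcopM.symm)
    (Or.inr (by have := S.2.isNilpotent; infer_instance)) inf_le_left
    (fun a ha => by
      rw [Subgroup.mem_normalizer_iff]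
      intro x
      simp only [Subgroup.mem_inf]
      exact and_congr ((Subgroup.mem_normalizer_iff.1 (hAM ha)) x)
        ⟨fun h => φ.normal_ker.conj_mem x h a, fun h => by
          simpa [mul_assoc] using φ.normal_ker.conj_mem _ h a⁻¹⟩)
    hyS (fun a ha => ⟨(S : Subgroup G).mul_mem (inv_mem hyS)
        (((Subgroup.mem_normalizer_iff.1 (hAM ha)) y).1 hyS), by
      have hc : φ a * φ y = φ y * φ a :=
        MulEquiv.injective (IsCyclic.mulAutMulEquiv V) (by rw [map_mul, map_mul, mul_comm])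
      show y⁻¹ * (a * y * a⁻¹) ∈ φ.ker
      rw [MonoidHom.mem_ker, map_mul, map_inv, map_mul, map_mul, map_inv, hc, mul_inv_cancel_right,
        inv_mul_cancel]⟩)
  obtain ⟨hcS, hcA⟩ := hc
  have hcK : c ∉ φ.ker := fun h => hyK (by
    have h2 := φ.ker.mul_mem h (φ.ker.inv_mem hyc.2)
    rwa [mul_inv_rev, inv_inv, mul_inv_cancel_left] at h2)
  have hcV : c ∉ V := fun h => hcK ((hker c).2 fun v hv => hVcomm c h v hv)
  -- the quotient by the 2-core
  set π := QuotientGroup.mk' V with hπ
  have hsurj : Function.Surjective π := QuotientGroup.mk'_surjective V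
  have hmem : ∀ (S : Sylow 2 G) (x : G), π x ∈ S.mapSurjective hsurj ↔ x ∈ S := by
    intro S x
    show π x ∈ (S : Subgroup G).map π ↔ _
    rw [← Subgroup.mem_comap, Subgroup.comap_map_eq, hπ, QuotientGroup.ker_mk', sup_eq_left.2 (hVle S)]
    rfl
  have hpi1 : ∀ x, π x = 1 ↔ x ∈ V := fun x => QuotientGroup.eq_one_iff x
  have hIQ : ∀ S T : Sylow 2 (G ⧸ V), S ≠ T →
      IsCyclic ↥((S : Subgroup (G ⧸ V)) ⊓ (T : Subgroup (G ⧸ V))) := by
    intro S' T' hne
    obtain ⟨S, rfl⟩ := Sylow.mapSurjective_surjective hsurj 2 S'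
    obtain ⟨T, rfl⟩ := Sylow.mapSurjective_surjective hsurj 2 T'
    have := hI S T (fun e => hne (by rw [e]))
    have e : ((S.mapSurjective hsurj : Sylow 2 (G ⧸ V)) : Subgroup (G ⧸ V)) ⊓
        (T.mapSurjective hsurj : Sylow 2 (G ⧸ V)) = ((S : Subgroup G) ⊓ (T : Subgroup G)).map π := by
      ext q
      obtain ⟨x, rfl⟩ := hsurj q
      constructor
      · rintro ⟨h1, h2⟩
        exact ⟨x, ⟨(hmem S x).1 h1, (hmem T x).1 h2⟩, rfl⟩
      · rintro ⟨z, ⟨h1, h2⟩, e⟩
        rw [← e]; exact ⟨(hmem S z).2 h1, (hmem T z).2 h2⟩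
    rw [e]
    exact isCyclic_of_surjective _ (π.subgroupMap_surjective _)
  have h2Q : ∀ M : Subgroup (G ⧸ V), M.Normal → IsPGroup 2 M → M = ⊥ := by
    intro M hM hM2
    have h := H19.le_pCore (hM.comap π) (hM2.comap_of_ker_isPGroup π (by rw [hπ, QuotientGroup.ker_mk']; exact hV2))
    rw [← Subgroup.map_comap_eq_self_of_surjective hsurj M]
    refine le_bot_iff.1 ((Subgroup.map_mono h).trans (le_of_eq ?_))
    rw [Subgroup.map_eq_bot_iff, hπ, QuotientGroup.ker_mk']
  have hOQ : Cfsg.pPrimeCore 2 (G ⧸ V) = ⊥ := by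
    set Qo := Cfsg.pPrimeCore 2 (G ⧸ V)
    have hQn : Qo.Normal := H19.pPrimeCore_normal 2 _
    have hQc := H19.pPrimeCore_coprime (G := G ⧸ V) 2
    set φ' : G ⧸ V →* MulAut V := QuotientGroup.lift V φ (fun v hv => (hker v).2 fun w hw => hVcomm v hv w hw)
    set M := Qo.comap π
    have hMK : M ≤ φ.ker := by
      intro x hx
      have h1 : (Qo.map φ') = ⊥ := by
        obtain ⟨n, hn⟩ := (IsPGroup.to_subgroup hA2 (Qo.map φ')).exists_card_eq
        have hd := hn ▸ Subgroup.card_map_dvd Qo φ'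
        have hcop : (2 ^ n).Coprime 2 := hQc.coprime_dvd_left hd
        rcases Nat.eq_zero_or_pos n with rfl | hn0
        · exact Subgroup.card_eq_one.1 (by simpa using hn)
        · rw [Nat.coprime_pow_left_iff hn0] at hcop; norm_num at hcop
      have h2 : φ' (π x) ∈ Qo.map φ' := Subgroup.mem_map_of_mem _ hx
      rw [h1, Subgroup.mem_bot] at h2
      exact h2
    have hMn : M.Normal := hQn.comap π
    have hcard : Nat.card M = Nat.card V * Nat.card Qo := (H19.card_comap_mk V Qo).trans (mul_comm _ _)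
    have hVM : V ≤ M := fun v hv => by
      show π v ∈ Qo
      rw [(hpi1 v).2 hv]; exact one_mem _
    have hrel : V.relIndex M = Nat.card Qo := by
      have h := Subgroup.relIndex_mul_relIndex ⊥ V M bot_le hVM
      rw [Subgroup.relIndex_bot_left, Subgroup.relIndex_bot_left, hcard] at h
      exact Nat.eq_of_mul_eq_mul_left Nat.card_pos h
    obtain ⟨n, hn⟩ := hV2.exists_card_eq
    have hcop : (Nat.card V).Coprime (V.relIndex M) := by
      rw [hrel, hn]; exact Nat.Coprime.pow_left n hQc.symm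
    obtain ⟨T, hTM, hVT, hTc⟩ := H20.exists_complement_of_coprime hVM
      (Subgroup.le_normalizer_of_normal_subgroupOf (hK := Subgroup.Normal.subgroupOf hVn M) hVM) hcop
    rw [hrel] at hTc
    have hTn : T.Normal := ⟨fun t ht g => by
      have hto : orderOf (g * t * g⁻¹) ∣ Nat.card T := by
        rw [orderOf_conj, ← Subgroup.orderOf_mk t ht]; exact orderOf_dvd_natCard _
      have hm : g * t * g⁻¹ ∈ V ⊔ T := hVT.symm ▸ hMn.conj_mem t (hTM ht) g
      obtain ⟨v, hv, t', ht', e⟩ := Subgroup.mem_sup_of_normal_left.1 hm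
      have hcomm : Commute v t' := ((hker t').1 (hMK (hTM ht')) v hv).symm
      have hvp : v ^ Nat.card T = 1 := by
        have h1 : (v * t') ^ Nat.card T = 1 := by
          rw [e]; exact orderOf_dvd_iff_pow_eq_one.1 hto
        rw [hcomm.mul_pow] at h1
        have h2 : t' ^ Nat.card T = 1 := congrArg Subtype.val (pow_card_eq_one' (x := (⟨t', ht'⟩ : T)))
        rwa [h2, mul_one] at h1
      have hv1 : orderOf v = 1 := Nat.eq_one_of_dvd_coprimes (a := Nat.card V) (b := Nat.card T)
        (by rw [hTc, ← hrel]; exact hcop)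
        (by rw [← Subgroup.orderOf_mk v hv]; exact orderOf_dvd_natCard _) (orderOf_dvd_of_pow_eq_one hvp)
      rw [orderOf_eq_one_iff] at hv1
      rw [← e, hv1, one_mul]; exact ht'⟩
    have hTb := H19.le_pPrimeCore hTn (p := 2) (by rw [hTc]; exact hQc)
    rw [hO, le_bot_iff] at hTb
    rw [hTb, Subgroup.card_bot] at hTc
    exact Subgroup.card_eq_one.1 hTc.symm
  -- the involution
  obtain ⟨r, hr⟩ := isPGroup_two_iff_orderOf (C := ((S.mapSurjective hsurj : Sylow 2 _) : Subgroup (G ⧸ V)))
    (S.mapSurjective hsurj).2 ((hmem S c).2 hcS)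
  have hr0 : 0 < r := by
    rcases Nat.eq_zero_or_pos r with rfl | h
    · exact absurd ((hpi1 c).1 (orderOf_eq_one_iff.1 (by simpa using hr))) hcV
    · exact h
  set w := c ^ (2 ^ (r - 1)) with hw
  have hwo : orderOf (π w) = 2 := by
    rw [hw, map_pow, orderOf_pow_of_dvd (pow_ne_zero _ two_ne_zero) (hr ▸ Nat.pow_dvd_pow 2 (Nat.sub_le r 1)),
      hr, Nat.pow_div (Nat.sub_le r 1) two_pos, show r - (r - 1) = 1 by omega, pow_one]
  have hwS : w ∈ S := (S : Subgroup G).pow_mem hcS _
  have hwV : w ∉ V := fun h => ne_one_of_orderOf hwo ((hpi1 w).2 h)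
  have hwU : ∀ T : Sylow 2 (G ⧸ V), π w ∈ T → T = S.mapSurjective hsurj := by
    intro T' hT'
    obtain ⟨T, rfl⟩ := Sylow.mapSurjective_surjective hsurj 2 T'
    by_contra hne
    have hne' : S ≠ T := fun e => hne (by rw [e])
    have hle := le_zpowers_of_notMem (hI S T hne') (S.2.to_le inf_le_left) (le_inf (hVle S) (hVle T))
      ⟨hwS, (hmem T w).1 hT'⟩ hwV
    refine hcK ((hker c).2 fun v hv => ?_)
    obtain ⟨i, hi⟩ := hle hv
    rw [← hi]
    exact (((Commute.refl c).pow_right _).zpow_right i).eq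
  refine false_of_unique_involution hIQ hOQ h2Q (S.mapSurjective hsurj) (π w) hwo ((hmem S w).2 hwS) hwU ?_ ?_
  · intro n hn
    obtain ⟨g, rfl⟩ := hsurj n
    have hg : g ∈ (S : Subgroup G) ⊔ A := by
      rw [hSA]
      refine Subgroup.mem_normalizer_iff.2 fun x => ?_
      have h := Subgroup.mem_normalizer_iff.1 hn (π x)
      rw [← map_inv, ← map_mul, ← map_mul] at h
      exact ((hmem S x).symm.trans h).trans (hmem S _)
    obtain ⟨s, hs, a, ha, rfl⟩ : ∃ s ∈ (S : Subgroup G), ∃ a ∈ A, s * a = g := by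
      have h : g ∈ ((((S : Subgroup G) ⊔ A : Subgroup G)) : Set G) := hg
      rw [Subgroup.coe_mul_of_right_le_normalizer_left _ _ (hAM.trans le_rfl), Set.mem_mul] at h
      exact h
    refine ⟨π s, (hmem S s).2 hs, ?_⟩
    have hcw : a * w = w * a := by
      have : Commute a c := (Subgroup.mem_centralizer_iff.1 hcA a ha)
      exact (this.pow_right _).eq
    rw [← map_inv, ← map_mul, ← map_mul, ← map_inv, ← map_mul, ← map_mul]
    congr 1
    calc s * a * w * (s * a)⁻¹ = s * (a * w) * a⁻¹ * s⁻¹ := by group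
      _ = _ := by rw [hcw]; group
  · intro x' y' hx hy hne hcomm hBx hBy hxS hyS T' hT'
    by_contra hTne
    obtain ⟨x, rfl⟩ := hsurj x'
    obtain ⟨y, rfl⟩ := hsurj y'
    have key : ∀ p : G, orderOf (π p) = 2 → π p ∈ S.mapSurjective hsurj →
        (∃ T : Sylow 2 (G ⧸ V), T ≠ S.mapSurjective hsurj ∧ π p ∈ T) →
        p * p ∈ V ∧ V ≤ Subgroup.zpowers (p * p) ∧ ∀ v ∈ V, p * v = v * p := by
      intro p hp hpS ⟨T', hT', hpT⟩
      obtain ⟨T, rfl⟩ := Sylow.mapSurjective_surjective hsurj 2 T'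
      have hne' : S ≠ T := fun e => hT' (by rw [e])
      have hC := hI S T hne'
      have hpC : p ∈ (S : Subgroup G) ⊓ (T : Subgroup G) := ⟨(hmem S p).1 hpS, (hmem T p).1 hpT⟩
      have hpV : p ∉ V := fun h => ne_one_of_orderOf hp ((hpi1 p).2 h)
      have hle := le_zpowers_of_notMem hC (S.2.to_le inf_le_left) (le_inf (hVle S) (hVle T)) hpC hpV
      have hpp : p * p ∈ V := (hpi1 _).1 (by rw [map_mul]; exact mul_self_of_orderOf hp)
      refine ⟨hpp, fun v hv => ?_, fun v hv => ?_⟩
      · obtain ⟨i, hi⟩ := hle hv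
        replace hi : p ^ i = v := hi
        rcases Int.even_or_odd i with ⟨j, hj⟩ | ⟨j, hj⟩
        · refine ⟨j, ?_⟩
          show (p * p) ^ j = v
          rw [← hi, hj, ← zpow_two, ← zpow_mul]; ring_nf
        · refine absurd ?_ hpV
          have h1 : p ^ (2 * j) ∈ V := by rw [zpow_mul, zpow_two]; exact V.zpow_mem hpp j
          have h2 : p ^ i ∈ V := hi ▸ hv
          rw [hj, zpow_add, zpow_one] at h2
          exact (Subgroup.mul_mem_cancel_left V h1).1 h2
      · obtain ⟨i, rfl⟩ := hle hv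
        exact ((Commute.refl p).zpow_right i).eq
    obtain ⟨hxx, hxg, hxc⟩ := key x hx hxS hBx
    obtain ⟨hyy, hyg, hyc⟩ := key y hy hyS hBy
    have hxy2 : orderOf (π (x * y)) = 2 := by
      rw [map_mul]
      refine orderOf_eq_two ?_ fun e => hne ?_
      · rw [show π x * π y * (π x * π y) = π x * (π y * π x) * π y by group, ← hcomm.eq,
          show π x * (π x * π y) * π y = π x * π x * (π y * π y) by group, mul_self_of_orderOf hx,
          mul_self_of_orderOf hy, one_mul]
      · rw [← inv_eq_of_orderOf hy]; exact mul_eq_one_iff_eq_inv.1 e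
    obtain ⟨hpp, hpg, -⟩ := key (x * y) hxy2 (by rw [map_mul]; exact Subgroup.mul_mem _ hxS hyS)
      ⟨T', hTne, by rw [map_mul]; exact hT'⟩
    set ε := y * x * y⁻¹ * x⁻¹ with hε
    have hεV : ε ∈ V := (hpi1 _).1 (by
      rw [hε, map_mul, map_mul, map_mul, map_inv, map_inv, hcomm.symm.eq, mul_inv_cancel_right, mul_inv_cancel])
    have hε2 : ε * ε = 1 := by
      have h1 : (ε * x) * (ε * x) = x * x := by
        have h2 : ε * x = y * x * y⁻¹ := by rw [hε]; group
        rw [h2, show y * x * y⁻¹ * (y * x * y⁻¹) = y * (x * x) * y⁻¹ by group, hyc _ hxx, mul_inv_cancel_right]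
      rw [show ε * x * (ε * x) = ε * (x * ε) * x by group, hxc _ hεV,
        show ε * (ε * x) * x = ε * ε * (x * x) by group] at h1
      exact mul_eq_right.1 h1
    have hexp : x * y * (x * y) = ε * (x * x) * (y * y) := by
      calc x * y * (x * y) = x * (y * x * y⁻¹ * x⁻¹) * x * (y * y) := by group
        _ = x * ε * x * (y * y) := by rw [hε]
        _ = ε * x * x * (y * y) := by rw [hxc _ hεV]
        _ = _ := by group
    obtain ⟨n, hn⟩ := hV2.exists_card_eq
    have hn2 : 2 ≤ n := by
      by_contra hlt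
      have : n ≤ 1 := by omega
      have := Nat.pow_le_pow_right two_pos this
      omega
    have hgen : ∀ v : G, v ∈ V → V ≤ Subgroup.zpowers v → orderOf v = 2 ^ n := fun v hv hle => by
      rw [← Nat.card_zpowers, le_antisymm (Subgroup.zpowers_le.2 hv) hle, hn]
    have hk : (2 : ℕ) ^ (n - 1) * 2 = 2 ^ n := by rw [← pow_succ]; congr 1; omega
    have hhalf : ∀ v : G, orderOf v = 2 ^ n → orderOf (v ^ (2 ^ (n - 1))) = 2 := fun v hv => by
      rw [orderOf_pow_of_dvd (pow_ne_zero _ two_ne_zero) (hv ▸ Nat.pow_dvd_pow 2 (Nat.sub_le n 1)),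
        hv, Nat.pow_div (Nat.sub_le n 1) two_pos, show n - (n - 1) = 1 by omega, pow_one]
    have hp := hhalf _ (hgen _ hpp hpg)
    refine ne_one_of_orderOf hp ?_
    have hco : ∀ a ∈ V, ∀ b ∈ V, Commute a b := hVcomm
    rw [hexp, (hco _ (V.mul_mem hεV hxx) _ hyy).mul_pow, (hco _ hεV _ hxx).mul_pow]
    have he : ε ^ 2 ^ (n - 1) = 1 := by
      obtain ⟨k, hk'⟩ : 2 ∣ 2 ^ (n - 1) := dvd_pow_self 2 (by omega)
      rw [hk', pow_mul, sq, hε2, one_pow]
    have hinv := hhalf _ (hgen _ hxx hxg)
    have huniq : (y * y) ^ 2 ^ (n - 1) = (x * x) ^ 2 ^ (n - 1) := by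
      have h1 := hhalf _ (hgen _ hyy hyg)
      by_contra hne'
      exact hST (eq_of_two_involutions hI h1 hinv hne'
        (hVle S₁ (V.pow_mem hyy _)) (hVle T₁ (V.pow_mem hyy _))
        (hVle S₁ (V.pow_mem hxx _)) (hVle T₁ (V.pow_mem hxx _)))
    rw [he, one_mul, huniq, mul_self_of_orderOf hinv]

omit hI hO

/-- The general statement. -/
theorem solvable_normal_image (hFT : OddSolvable.{u}) (hns : ¬ Group.IsSolvable G)
    (hC : ∀ S T : Sylow 2 G, S ≠ T → IsCyclic ↥((S : Subgroup G) ⊓ (T : Subgroup G)))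
    (N : Subgroup G) [N.Normal] (hN : Group.IsSolvable N) (R : Subgroup G) [R.Normal]
    (hR : R = Cfsg.pPrimeCore 2 G) :
    IsCyclic ↥(N.map (QuotientGroup.mk' R)) ∧ IsPGroup 2 ↥(N.map (QuotientGroup.mk' R)) ∧
      N.map (QuotientGroup.mk' R) ≤ Subgroup.center (G ⧸ R) := by
  have : Fact (Nat.Prime 2) := ⟨Nat.prime_two⟩
  subst hR
  set R := Cfsg.pPrimeCore 2 G
  set π := QuotientGroup.mk' R
  have hsurj : Function.Surjective π := QuotientGroup.mk'_surjective R
  have hRc : (Nat.card R).Coprime 2 := H19.pPrimeCore_coprime 2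
  have hns' : ¬ Group.IsSolvable (G ⧸ R) := fun h =>
    hns (isSolvable_of_quotient R (hFT R (Nat.coprime_two_right.1 hRc)) h)
  have hI' : ∀ S T : Sylow 2 (G ⧸ R), S ≠ T →
      IsCyclic ↥((S : Subgroup (G ⧸ R)) ⊓ (T : Subgroup (G ⧸ R))) := by
    intro S' T' hne
    set U := (S' : Subgroup (G ⧸ R)) ⊓ (T' : Subgroup (G ⧸ R))
    obtain ⟨P⟩ : Nonempty (Sylow 2 (U.comap π)) := inferInstance
    have hmap : (P : Subgroup (U.comap π)).map (π.subgroupComap U) = ⊤ := by
      have hs := π.subgroupComap_surjective_of_surjective U hsurj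
      have h := P.mapSurjective hs
      exact ((P.mapSurjective hs).is_maximal' (IsPGroup.to_subgroup (S'.2.to_le inf_le_left) ⊤) le_top).symm
    have hlift : ∀ X : Sylow 2 (G ⧸ R), U ≤ X → ∃ S : Sylow 2 G, S.mapSurjective hsurj = X ∧
        (P : Subgroup (U.comap π)).map (U.comap π).subtype ≤ S := by
      intro X hX
      have hle : (P : Subgroup (U.comap π)).map (U.comap π).subtype ≤ (X : Subgroup (G ⧸ R)).comap π :=
        (Subgroup.map_subtype_le _).trans (Subgroup.comap_mono hX)
      obtain ⟨Q, hQ⟩ := ((P.2.map (U.comap π).subtype).of_equiv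
        (Subgroup.subgroupOfEquivOfLe hle).symm).exists_le_sylow
      obtain ⟨S, hS⟩ := (Q.2.map ((X : Subgroup (G ⧸ R)).comap π).subtype).exists_le_sylow
      obtain ⟨S₀, rfl⟩ := Sylow.mapSurjective_surjective hsurj 2 X
      have hle' : (S₀ : Subgroup G) ≤ ((S₀.mapSurjective hsurj : Sylow 2 _) : Subgroup (G ⧸ R)).comap π :=
        Subgroup.le_comap_map π _
      have hcard : Nat.card Q = Nat.card (S₀ : Subgroup G) := by
        rw [← Nat.card_congr (Subgroup.subgroupOfEquivOfLe hle').toEquiv, Q.card_eq_multiplicity]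
        exact (S₀.subtype hle').card_eq_multiplicity.symm
      have hSQ : (Q : Subgroup _).map ((((S₀.mapSurjective hsurj : Sylow 2 _) : Subgroup (G ⧸ R)).comap π)).subtype = S := by
        refine Subgroup.eq_of_le_of_card_ge hS ?_
        rw [Subgroup.card_map_of_injective (Subgroup.subtype_injective _)]
        rw [S.card_eq_multiplicity, ← S₀.card_eq_multiplicity]
        exact le_of_eq hcard.symm
      refine ⟨S, Sylow.ext (((S.mapSurjective hsurj).is_maximal' (S₀.mapSurjective hsurj).2 ?_).symm), ?_⟩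
      · rw [Sylow.coe_mapSurjective, ← hSQ, Subgroup.map_le_iff_le_comap]
        exact Subgroup.map_subtype_le _
      · rw [← hSQ]
        intro g hg
        exact ⟨⟨g, hle hg⟩, hQ (Subgroup.mem_subgroupOf.2 hg), rfl⟩
    obtain ⟨S, hS, hPS⟩ := hlift S' inf_le_left
    obtain ⟨T, hT, hPT⟩ := hlift T' inf_le_right
    have := hC S T (fun e => hne (by rw [← hS, ← hT, e]))
    have hUle : U = ((S : Subgroup G) ⊓ (T : Subgroup G)).map π := by
      refine le_antisymm (fun q hq => ?_) ?_
      · have hq' : (⟨q, hq⟩ : U) ∈ (P : Subgroup (U.comap π)).map (π.subgroupComap U) := hmap ▸ Subgroup.mem_top _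
        obtain ⟨g, hg, hgq⟩ := hq'
        exact ⟨g, ⟨hPS (Subgroup.mem_map_of_mem _ hg), hPT (Subgroup.mem_map_of_mem _ hg)⟩, congrArg Subtype.val hgq⟩
      · rintro q ⟨g, ⟨hg1, hg2⟩, rfl⟩
        refine ⟨?_, ?_⟩
        · rw [← hS]; exact Subgroup.mem_map_of_mem π hg1
        · rw [← hT]; exact Subgroup.mem_map_of_mem π hg2
    rw [hUle]
    exact isCyclic_of_surjective _ (π.subgroupMap_surjective _)
  have hNn : (N.map π).Normal := Subgroup.Normal.map ‹_› π hsurj
  exact core_step hI' (H19.pPrimeCore_quotient_pPrimeCore 2) hFT hns' (N.map π)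
    (Group.isSolvable_of_surjective (π.subgroupMap_surjective N))

end Cfsg.Agent.H79.InvCyclic
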